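import Cfsg.Agent.H704.LowDegree
import Cfsg.Agent.H704.Bridge
import Cfsg.Agent.H937.Conj.CC

/-!
# Representations of `S_p` without vectors fixed by a `p`-cycle (helper937)

`key` : `p ≥ 5` prime, `V ≠ 0` a complex representation of `Perm α`, `|α| = p`, in which no element of order `p` fixes a
nonzero vector. Then the stabiliser of a point acts on some nonzero vector trivially or by the sign.
-/

set_option autoImplicit false
set_option linter.unusedSectionVars false

namespace Cfsg.Agent.H937.AltKey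

open Finset Cfsg Cfsg.Agent.H614 Cfsg.Agent.H704 Cfsg.Agent.Characters.Core
open scoped ComplexConjugate

universe u v

/-! ### the value at a `p`-cycle -/

section value

variable {m : ℕ}

theorem abs_vac (γ : Fin m → ℕ) : |vac γ| ≤ 1 := by
  unfold vac
  by_cases h : ∃ σ : Equiv.Perm (Fin m), γ = fun i => ((σ i : Fin m) : ℕ)
  · obtain ⟨σ, hσ⟩ := h
    rw [Finset.sum_eq_single σ, if_pos hσ]
    · have h1 := sg_mul_self σ
      have h2 : |sg σ| * |sg σ| = 1 := by rw [← abs_mul, h1, abs_one]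
      nlinarith [abs_nonneg (sg σ)]
    · intro τ _ hτ
      rw [if_neg]
      intro h1
      apply hτ
      ext i
      have h2 := congrFun (h1.symm.trans hσ) i
      exact h2
    · intro h
      exact absurd (Finset.mem_univ σ) h
  · rw [not_exists] at h
    rw [Finset.sum_eq_zero fun σ _ => if_neg (h σ), abs_zero]
    exact zero_le_one

theorem exists_of_vac {γ : Fin m → ℕ} (h : vac γ ≠ 0) :
    ∃ σ : Equiv.Perm (Fin m), γ = fun i => ((σ i : Fin m) : ℕ) := by
  by_contra hne
  rw [not_exists] at hne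
  exact h (Finset.sum_eq_zero fun σ _ => if_neg (hne σ))

theorem abs_F_single {r : ℕ} (hr : 0 < r) {β : Fin m → ℕ} (hβ : Function.Injective β) : |F [r] β| ≤ 1 := by
  rw [F_cons]
  by_cases h : ∃ j, (if r ≤ β j then F [] (dn β j r) else 0) ≠ 0
  · obtain ⟨j, hj⟩ := h
    rw [Finset.sum_eq_single j]
    · split_ifs
      · exact abs_vac _
      · rw [abs_zero]; exact zero_le_one
    · intro k _ hkj
      by_contra hk
      have key : ∀ k, (if r ≤ β k then F [] (dn β k r) else 0) ≠ 0 → r ≤ β k ∧ ∃ σ : Equiv.Perm (Fin m),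
          dn β k r = fun i => ((σ i : Fin m) : ℕ) := by
        intro k h
        by_cases h1 : r ≤ β k
        · rw [if_pos h1] at h
          exact ⟨h1, exists_of_vac h⟩
        · rw [if_neg h1] at h
          exact absurd rfl h
      obtain ⟨h1, σ, hσ⟩ := key j hj
      obtain ⟨h2, τ, hτ⟩ := key k hk
      have h3 : β j = τ j := by rw [← congrFun hτ j, dn_ne β r (Ne.symm hkj)]
      obtain ⟨i, hi⟩ := σ.surjective (τ j)
      have h4 : dn β j r i = β j := by
        rw [congrFun hσ i, hi, h3]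
      by_cases hij : i = j
      · subst hij
        rw [dn_self] at h4
        omega
      · rw [dn_ne β r hij] at h4
        exact hij (hβ h4)
    · intro h
      exact absurd (Finset.mem_univ j) h
  · rw [not_exists] at h
    rw [Finset.sum_eq_zero fun j _ => not_not.1 (h j), abs_zero]
    exact zero_le_one

end value

section

variable {α : Type u} [Fintype α] [DecidableEq α] {p : ℕ}

theorem ty_of_order (hp : p.Prime) (hα : Fintype.card α = p) {c : Equiv.Perm α} (hc : orderOf c = p) :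
    ty c = ([p] : List ℕ) := by
  have h1 : c.IsCycle := Equiv.Perm.isCycle_of_prime_order'' (by rw [hα]; exact hp) (by rw [hc, hα])
  have h2 : c.cycleType = {p} := by
    rw [h1.cycleType, ← h1.orderOf, hc]
  rw [ty_eq, h2, hα]
  simp

/-- the value at a `p`-cycle is an integer of absolute value at most `1` -/
theorem exists_value (hp : p.Prime) (hα : Fintype.card α = p) {χ : Equiv.Perm α → ℂ}
    (hχ : IsIrrCharacter (Equiv.Perm α) χ) :
    ∃ k : ℤ, |k| ≤ 1 ∧ ∀ c : Equiv.Perm α, orderOf c = p → χ c = k := by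
  obtain ⟨β, hβ, -, rfl⟩ := irr_eq (m := Fintype.card α) le_rfl hχ
  refine ⟨F [p] β, abs_F_single hp.pos hβ.injective, fun c hc => ?_⟩
  rw [ch_apply, ty_of_order hp hα hc, FM_coe]

/-! ### representations without fixed vectors -/

/-- the sum of the powers of an element without fixed vectors -/
theorem sum_pow_eq_zero {G : Type*} [Group G] {V : Type*} [AddCommGroup V] [Module ℂ V] (ρ : Representation ℂ G V)
    {c : G} (hc : orderOf c = p) (h : ∀ v, ρ c v = v → v = 0) : ∑ k ∈ range p, ρ (c ^ k) = 0 := by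
  ext v
  apply h
  rw [LinearMap.sum_apply, map_sum]
  have h1 : ∀ k, ρ c (ρ (c ^ k) v) = ρ (c ^ (k + 1)) v := fun k => by
    rw [pow_succ', map_mul]; rfl
  rw [Finset.sum_congr rfl fun k _ => h1 k]
  have h2 := Finset.sum_range_succ' (fun k => ρ (c ^ k) v) p
  have h3 := Finset.sum_range_succ (fun k => ρ (c ^ k) v) p
  rw [h2, ← hc, pow_orderOf_eq_one, pow_zero, hc] at h3
  exact add_right_cancel h3

/-- **The degree of an irreducible character without vectors fixed by a `p`-cycle.** -/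
theorem degree_eq (hp : p.Prime) (hα : Fintype.card α = p) {V : Type*} [AddCommGroup V] [Module ℂ V]
    [FiniteDimensional ℂ V] (ρ : Representation ℂ (Equiv.Perm α) V) (hirr : IsIrrCharacter _ ρ.character)
    (h : ∀ c : Equiv.Perm α, orderOf c = p → ∀ v, ρ c v = v → v = 0) :
    ρ.character 1 = ((p - 1 : ℕ) : ℂ) ∧ ∀ c : Equiv.Perm α, orderOf c = p → ρ.character c = -1 := by
  obtain ⟨k, hk, hval⟩ := exists_value hp hα hirr
  have := Fact.mk hp
  obtain ⟨c, hc⟩ : ∃ c : Equiv.Perm α, orderOf c = p := by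
    apply exists_prime_orderOf_dvd_card
    rw [Fintype.card_perm, hα]
    exact Nat.dvd_factorial hp.pos le_rfl
  have h1 := sum_pow_eq_zero ρ hc (h c hc)
  have h2 : ∑ i ∈ range p, ρ.character (c ^ i) = 0 := by
    have h3 := congrArg (LinearMap.trace ℂ V) h1
    rw [map_sum, map_zero] at h3
    exact h3
  obtain ⟨s, rfl⟩ : ∃ s, p = s + 1 := ⟨p - 1, by have := hp.pos; omega⟩
  rw [Finset.sum_range_succ', pow_zero] at h2
  have h3 : ∀ i ∈ range s, ρ.character (c ^ (i + 1)) = k := by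
    intro i hi
    apply hval
    have h4 : ¬ (s + 1) ∣ (i + 1) := Nat.not_dvd_of_pos_of_lt (Nat.succ_pos i) (by rw [Finset.mem_range] at hi; omega)
    have h5 := Nat.Coprime.orderOf_pow (y := c) (m := i + 1) (by
      rw [hc]
      exact (hp.coprime_iff_not_dvd.2 h4))
    rw [h5, hc]
  rw [Finset.sum_congr rfl h3, Finset.sum_const, Finset.card_range, nsmul_eq_mul] at h2
  obtain ⟨d, hd, hd1⟩ := isIrr_apply_one hirr
  rw [hd1] at h2
  have h6 : (s : ℤ) * k + d = 0 := by exact_mod_cast h2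
  have h7 : k = -1 := by
    rw [abs_le] at hk
    have : k < 0 := by
      by_contra h8
      push Not at h8
      have h9 : (0 : ℤ) ≤ s * k := mul_nonneg (Int.natCast_nonneg s) h8
      have : (0 : ℤ) < d := by exact_mod_cast hd
      omega
    omega
  subst h7
  have h8 : d = s := by
    have : (s : ℤ) * (-1) = -s := by ring
    rw [this] at h6
    omega
  refine ⟨by rw [hd1, h8, Nat.add_sub_cancel], fun c hc => ?_⟩
  rw [hval c hc]
  simp

end

/-! ### vectors -/

/-- a linear constituent gives a vector -/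
theorem exists_vec {H : Type*} [Group H] [Finite H] {V : Type*} [AddCommGroup V] [Module ℂ V] [FiniteDimensional ℂ V]
    (ρ : Representation ℂ H V) (l : H →* ℂˣ) [Fintype H] (h : classInner ρ.character (fun x => (l x : ℂ)) ≠ 0) :
    ∃ v : V, v ≠ 0 ∧ ∀ g, ρ g v = (l g : ℂ) • v := by
  let E : V →ₗ[ℂ] V := ∑ x : H, ((l x⁻¹ : ℂˣ) : ℂ) • ρ x
  have h1 : LinearMap.trace ℂ V E ≠ 0 := by
    intro h0
    apply h
    rw [classInner_def]
    have h2 : ∑ x, ρ.character x * conj ((l x : ℂˣ) : ℂ) = LinearMap.trace ℂ V E := by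
      simp only [E, map_sum, map_smul, smul_eq_mul]
      refine Finset.sum_congr rfl fun x _ => ?_
      rw [Cfsg.Agent.SmallSimple.PrimeDual.conj_hom_apply, mul_comm]
      rfl
    rw [h2, h0, mul_zero]
  have h2 : E ≠ 0 := fun h0 => h1 (by rw [h0, map_zero])
  obtain ⟨w, hw⟩ : ∃ w, E w ≠ 0 := by
    by_contra hne
    push Not at hne
    exact h2 (LinearMap.ext hne)
  refine ⟨E w, hw, fun g => ?_⟩
  simp only [E, LinearMap.sum_apply, LinearMap.smul_apply, map_sum, map_smul, Finset.smul_sum, smul_smul]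
  refine Fintype.sum_equiv (Equiv.mulLeft g) _ _ fun x => ?_
  have h3 : l g * l (g * x)⁻¹ = l x⁻¹ := by
    rw [mul_inv_rev, map_mul, mul_comm (l x⁻¹), ← mul_assoc, ← map_mul, mul_inv_cancel, map_one, one_mul]
  rw [Equiv.coe_mulLeft, ← Units.val_mul, h3, map_mul]
  rfl

section

variable {α : Type u} [Fintype α] [DecidableEq α] {p : ℕ}

/-- a vector fixed by the even permutations of the stabiliser -/
theorem of_even {V : Type*} [AddCommGroup V] [Module ℂ V] (ρ : Representation ℂ (Equiv.Perm α) V) {a b c : α}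
    (hb : b ≠ a) (hc : c ≠ a) (hbc : b ≠ c) {v : V} (hv : v ≠ 0)
    (h : ∀ g : Equiv.Perm α, g a = a → Equiv.Perm.sign g = 1 → ρ g v = v) :
    ∃ v : V, v ≠ 0 ∧ ((∀ g : Equiv.Perm α, g a = a → ρ g v = v) ∨
      (∀ g : Equiv.Perm α, g a = a → ρ g v = ((Equiv.Perm.sign g : ℤ) : ℂ) • v)) := by
  obtain ⟨t, ht⟩ : ∃ t : Equiv.Perm α, t = Equiv.swap b c := ⟨_, rfl⟩
  have hta : t a = a := by rw [ht]; exact Equiv.swap_apply_of_ne_of_ne hb.symm hc.symm
  have htt : t * t = 1 := by rw [ht]; exact Equiv.swap_mul_self b c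
  have hts : Equiv.Perm.sign t = -1 := by rw [ht]; exact Equiv.Perm.sign_swap hbc
  have hodd : ∀ g : Equiv.Perm α, g a = a → Equiv.Perm.sign g ≠ 1 → ρ g v = ρ t v := by
    intro g hg hs
    have h1 : (Equiv.Perm.sign g) = -1 := (Int.units_eq_one_or _).resolve_left hs
    have h2 : t⁻¹ = t := inv_eq_of_mul_eq_one_left htt
    have h3 := h (t * g) (by rw [Equiv.Perm.mul_apply, hg, hta]) (by rw [Equiv.Perm.sign_mul, h1, hts]; rfl)
    calc ρ g v = ρ (t * (t * g)) v := by rw [← mul_assoc, htt, one_mul]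
      _ = ρ t (ρ (t * g) v) := by rw [map_mul]; rfl
      _ = ρ t v := by rw [h3]
  by_cases h1 : ρ t v = -v
  · refine ⟨v, hv, Or.inr fun g hg => ?_⟩
    by_cases hs : Equiv.Perm.sign g = 1
    · rw [h g hg hs, hs]; simp
    · rw [hodd g hg hs, h1, (Int.units_eq_one_or _).resolve_left hs]; simp
  · refine ⟨v + ρ t v, fun h0 => h1 (eq_neg_of_add_eq_zero_right h0), Or.inl fun g hg => ?_⟩
    have h2 : ρ g (ρ t v) = ρ (g * t) v := by rw [map_mul]; rfl
    have h3 : (g * t) a = a := by rw [Equiv.Perm.mul_apply, hta, hg]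
    rw [map_add, h2]
    by_cases hs : Equiv.Perm.sign g = 1
    · rw [h g hg hs, hodd (g * t) h3 (by rw [Equiv.Perm.sign_mul, hs, hts]; decide)]
    · rw [hodd g hg hs, h (g * t) h3 (by
        rw [Equiv.Perm.sign_mul, (Int.units_eq_one_or _).resolve_left hs, hts]; rfl), add_comm]

/-- the linear characters of a symmetric group are trivial on the even permutations -/
theorem linear_even {β : Type*} [Fintype β] [DecidableEq β] (l : Equiv.Perm β →* ℂˣ) {g : Equiv.Perm β}
    (hg : Equiv.Perm.sign g = 1) : l g = 1 := by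
  by_cases hβ : ∃ x y : β, x ≠ y
  · obtain ⟨x, y, hxy⟩ := hβ
    set ε := l (Equiv.swap x y) with hε
    have h1 : ∀ a b : β, a ≠ b → l (Equiv.swap a b) = ε := by
      intro a b hab
      obtain ⟨c, hc⟩ := isConj_iff.1 (Equiv.Perm.isConj_swap hxy hab)
      rw [← hc, map_mul, map_mul, map_inv, mul_comm (l c), mul_inv_cancel_right]
    have h2 : ε * ε = 1 := by rw [hε, ← map_mul, Equiv.swap_mul_self, map_one]
    have h3 : ∀ g : Equiv.Perm β, (l g = 1 ∧ Equiv.Perm.sign g = 1) ∨ (l g = ε ∧ Equiv.Perm.sign g = -1) := by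
      intro g
      induction g using Equiv.Perm.swap_induction_on with
      | one => left; exact ⟨map_one _, map_one _⟩
      | swap_mul f a b hab ih =>
        rw [map_mul, h1 a b hab, Equiv.Perm.sign_mul, Equiv.Perm.sign_swap hab]
        rcases ih with ⟨h4, h5⟩ | ⟨h4, h5⟩
        · right; rw [h4, h5]; exact ⟨mul_one _, rfl⟩
        · left; rw [h4, h5]; exact ⟨h2, rfl⟩
    rcases h3 g with h | h
    · exact h.1
    · rw [hg] at h
      exact absurd h.2 (by decide)
  · push Not at hβ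
    have : g = 1 := Equiv.ext fun x => hβ _ _
    rw [this, map_one]

/-- **a linear constituent on the stabiliser of a point**, `p ≥ 7` -/
theorem exists_linear (hp : p.Prime) (hp7 : 7 ≤ p) (hα : Fintype.card α = p) {χ : Equiv.Perm α → ℂ}
    (hχ : IsCharacter _ χ) (h1 : χ 1 = ((p - 1 : ℕ) : ℂ)) (a : α) :
    ∃ l : Equiv.Perm {x // x ≠ a} →* ℂˣ,
      classInner (fun g : Equiv.Perm {x // x ≠ a} => χ (Equiv.Perm.ofSubtype g)) (fun g => (l g : ℂ)) ≠ 0 := by
  classical
  have := finite_irr (G := Equiv.Perm {x // x ≠ a})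
  have := Fintype.ofFinite (IrrCharacter (Equiv.Perm {x // x ≠ a}))
  obtain ⟨n, hn⟩ := exists_nat_comb (isCharacter_comp (Equiv.Perm.ofSubtype (p := fun x => x ≠ a)) hχ)
  have hcard : Fintype.card {x // x ≠ a} = p - 1 := by
    rw [Fintype.card_subtype_compl, Fintype.card_subtype_eq, hα]
  choose d hd hdeg using fun ψ : IrrCharacter (Equiv.Perm {x // x ≠ a}) => isDeg_of_irr' ψ.2
  have h2 : p - 1 = ∑ ψ, n ψ * d ψ := by
    have h3 := congrFun hn 1
    rw [Finset.sum_apply] at h3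
    change χ (Equiv.Perm.ofSubtype 1) = _ at h3
    rw [map_one, h1] at h3
    have h4 : ∑ ψ : IrrCharacter (Equiv.Perm {x // x ≠ a}), (n ψ • (ψ : Equiv.Perm {x // x ≠ a} → ℂ)) 1 =
        ((∑ ψ, n ψ * d ψ : ℕ) : ℂ) := by
      push_cast
      refine Finset.sum_congr rfl fun ψ _ => ?_
      rw [Pi.smul_apply, hd, nsmul_eq_mul]
    rw [h4] at h3
    exact_mod_cast h3
  have h3 : ∃ ψ, n ψ ≠ 0 ∧ d ψ = 1 := by
    by_contra hne
    push Not at hne
    have h4 : ∀ ψ, n ψ ≠ 0 → d ψ = p - 2 := by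
      intro ψ hψ
      have h5 : d ψ ≤ p - 1 := by
        rw [h2]
        calc d ψ ≤ n ψ * d ψ := Nat.le_mul_of_pos_left _ (Nat.pos_of_ne_zero hψ)
          _ ≤ ∑ ψ, n ψ * d ψ := Finset.single_le_sum (f := fun ψ => n ψ * d ψ) (fun _ _ => Nat.zero_le _)
            (Finset.mem_univ ψ)
      have h6 := hne ψ hψ
      have h7 := hdeg ψ
      rw [hcard] at h7
      by_cases hp11 : 10 ≤ p
      · rcases low_degree (by omega) h7 with h | h | h
        · exact absurd h h6
        · omega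
        · exfalso
          have : (p - 1) * 7 ≤ (p - 1) * (p - 1 - 3) + (p-1) := by
            have : 6 ≤ p - 1 - 3 := by omega
            nlinarith
          omega
      · have hp' : p = 7 := by
          interval_cases p
          · rfl
          · exact absurd hp (by norm_num)
          · exact absurd hp (by norm_num)
        subst hp'
        have h8 := deg6 h7
        simp only [List.mem_cons, List.not_mem_nil, or_false] at h8
        omega
    have h5 : p - 1 = (p - 2) * ∑ ψ, n ψ := by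
      rw [h2, Finset.mul_sum]
      refine Finset.sum_congr rfl fun ψ _ => ?_
      by_cases hψ : n ψ = 0
      · rw [hψ, zero_mul, mul_zero]
      · rw [h4 ψ hψ, mul_comm]
    have h6 : (p - 2) ∣ (p - 2) + 1 := ⟨∑ ψ, n ψ, by rw [← h5]; omega⟩
    have h7 := (Nat.dvd_add_right (dvd_refl (p - 2))).1 h6
    have := Nat.le_of_dvd one_pos h7
    omega
  obtain ⟨ψ, hψ, hψ1⟩ := h3
  obtain ⟨l, hl⟩ := Cfsg.Agent.Characters.Linear.exists_hom_of_isIrrCharacter ψ.2 (by rw [hd, hψ1, Nat.cast_one])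
  refine ⟨l, ?_⟩
  rw [← hl]
  have h4 : (fun g : Equiv.Perm {x // x ≠ a} => χ (Equiv.Perm.ofSubtype g)) =
      ∑ ψ : IrrCharacter (Equiv.Perm {x // x ≠ a}), n ψ • (ψ : Equiv.Perm {x // x ≠ a} → ℂ) := hn
  rw [h4, classInner_sum_nsmul_irr]
  exact_mod_cast hψ

/-- the even permutations of the stabiliser fix a vector, `p ≥ 7` -/
theorem even_seven (hp : p.Prime) (hp7 : 7 ≤ p) (hα : Fintype.card α = p) {V : Type*} [AddCommGroup V] [Module ℂ V]
    [FiniteDimensional ℂ V] (ρ : Representation ℂ (Equiv.Perm α) V) (h1 : ρ.character 1 = ((p - 1 : ℕ) : ℂ)) (a : α) :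
    ∃ v : V, v ≠ 0 ∧ ∀ g : Equiv.Perm α, g a = a → Equiv.Perm.sign g = 1 → ρ g v = v := by
  obtain ⟨l, hl⟩ := exists_linear hp hp7 hα (isCharacter_of_rep ρ) h1 a
  obtain ⟨v, hv, hv1⟩ := exists_vec (ρ.comp (Equiv.Perm.ofSubtype (p := fun x => x ≠ a))) l hl
  refine ⟨v, hv, fun g hg hs => ?_⟩
  have h2 : ∀ x, g x ≠ a ↔ x ≠ a := fun x => by
    rw [not_iff_not]
    constructor
    · intro h; exact g.injective (h.trans hg.symm)
    · rintro rfl; exact hg
  have h3 : Equiv.Perm.ofSubtype (Equiv.Perm.subtypePerm g h2) = g :=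
    Equiv.Perm.ofSubtype_subtypePerm (p := fun x => x ≠ a) h2 (fun x hx hxa => hx (by rw [hxa]; exact hg))
  have h4 := hv1 (Equiv.Perm.subtypePerm g h2)
  rw [linear_even l (by rw [← Equiv.Perm.sign_ofSubtype, h3, hs]), Units.val_one, one_smul] at h4
  change ρ (Equiv.Perm.ofSubtype (Equiv.Perm.subtypePerm g h2)) v = v at h4
  rwa [h3] at h4

end

/-! ### `p = 5` -/

section five

/-- `(1 2)(3 4)` -/
def z5 : Equiv.Perm (Fin 5) := Equiv.swap 1 2 * Equiv.swap 3 4
/-- `(1 2 3)` -/
def y5 : Equiv.Perm (Fin 5) := Equiv.swap 1 2 * Equiv.swap 2 3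

theorem cls_z : ∀ g : Equiv.Perm (Fin 5), g ≠ 1 → g * g = 1 → Equiv.Perm.sign g = 1 → ∃ x, x * z5 * x⁻¹ = g := by
  decide +kernel

theorem cls_y : ∀ g : Equiv.Perm (Fin 5), g ≠ 1 → g * g * g = 1 → ∃ x, x * y5 * x⁻¹ = g := by
  decide +kernel

theorem even_zero : ∀ g : Equiv.Perm (Fin 5), g 0 = 0 ∧ Equiv.Perm.sign g = 1 ∧ g ≠ 1 ∧ g * g ≠ 1 → g * g * g = 1 := by
  decide +kernel

theorem cnt_z : (univ.filter fun g : Equiv.Perm (Fin 5) => g ≠ 1 ∧ g * g = 1 ∧ Equiv.Perm.sign g = 1).card = 15 := by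
  decide +kernel

theorem cnt_y : (univ.filter fun g : Equiv.Perm (Fin 5) => g ≠ 1 ∧ g * g * g = 1).card = 20 := by
  decide +kernel

/-- the even permutations of the stabiliser fix a vector, `p = 5` -/
theorem even_five {V : Type*} [AddCommGroup V] [Module ℂ V] [FiniteDimensional ℂ V]
    (ρ : Representation ℂ (Equiv.Perm (Fin 5)) V) (hirr : IsIrrCharacter _ ρ.character) (h1 : ρ.character 1 = 4) :
    ∃ v : V, v ≠ 0 ∧ ∀ g : Equiv.Perm (Fin 5), g 0 = 0 → Equiv.Perm.sign g = 1 → ρ g v = v := by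
  by_contra hne
  push Not at hne
  have hcl := isIrr_isClassFunction hirr
  obtain ⟨β, -, -, hβ⟩ := irr_eq (α := Fin 5) (m := 5) (by simp) hirr
  obtain ⟨b, hb⟩ : ∃ b : ℤ, ρ.character z5 = b := ⟨_, by rw [hβ, ch_apply]⟩
  obtain ⟨c, hc⟩ : ∃ c : ℤ, ρ.character y5 = c := ⟨_, by rw [hβ, ch_apply]⟩
  have hz : ∀ g : Equiv.Perm (Fin 5), g ≠ 1 → g * g = 1 → Equiv.Perm.sign g = 1 → ρ.character g = b := by
    intro g h1 h2 h3
    obtain ⟨x, hx⟩ := cls_z g h1 h2 h3
    rw [← hx, hcl, hb]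
  have hy : ∀ g : Equiv.Perm (Fin 5), g ≠ 1 → g * g * g = 1 → ρ.character g = c := by
    intro g h1 h2
    obtain ⟨x, hx⟩ := cls_y g h1 h2
    rw [← hx, hcl, hc]
  -- the sum over the even permutations fixing `0`
  have hsum : ∑ g ∈ univ.filter (fun g : Equiv.Perm (Fin 5) => g 0 = 0 ∧ Equiv.Perm.sign g = 1), ρ.character g = 0 := by
    have h2 : ∑ g ∈ univ.filter (fun g : Equiv.Perm (Fin 5) => g 0 = 0 ∧ Equiv.Perm.sign g = 1), ρ g = 0 := by
      ext v
      by_contra hv
      obtain ⟨g, hg, hs, hgv⟩ := hne _ hv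
      apply hgv
      rw [LinearMap.sum_apply, map_sum]
      refine Finset.sum_bij' (fun x _ => g * x) (fun x _ => g⁻¹ * x) ?_ ?_ ?_ ?_ ?_
      · intro x hx
        rw [Finset.mem_filter] at hx ⊢
        refine ⟨Finset.mem_univ _, ?_, ?_⟩
        · rw [Equiv.Perm.mul_apply, hx.2.1, hg]
        · rw [Equiv.Perm.sign_mul, hs, hx.2.2, mul_one]
      · intro x hx
        rw [Finset.mem_filter] at hx ⊢
        refine ⟨Finset.mem_univ _, ?_, ?_⟩
        · rw [Equiv.Perm.mul_apply, hx.2.1, Equiv.Perm.inv_eq_iff_eq, hg]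
        · rw [Equiv.Perm.sign_mul, Equiv.Perm.sign_inv, hs, hx.2.2, mul_one]
      · intro x _; exact inv_mul_cancel_left _ _
      · intro x _; exact mul_inv_cancel_left _ _
      · intro x _
        rw [map_mul]
        rfl
    have h3 := congrArg (LinearMap.trace ℂ V) h2
    rw [map_sum, map_zero] at h3
    exact h3
  have e1 : (4 : ℂ) + 3 * b + 8 * c = 0 := by
    have h2 : ∀ g ∈ univ.filter (fun g : Equiv.Perm (Fin 5) => g 0 = 0 ∧ Equiv.Perm.sign g = 1), ρ.character g =
        (if g = 1 then 4 else 0) + ((if g ≠ 1 ∧ g * g = 1 then (b : ℂ) else 0) +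
          if g ≠ 1 ∧ g * g ≠ 1 then (c : ℂ) else 0) := by
      intro g hg
      obtain ⟨h3, h4⟩ := (Finset.mem_filter.1 hg).2
      by_cases h5 : g = 1
      · rw [h5, h1]; simp
      · by_cases h6 : g * g = 1
        · rw [hz g h5 h6 h4, if_neg h5, if_pos ⟨h5, h6⟩, if_neg (fun h => h.2 h6)]; ring
        · rw [hy g h5 (even_zero g ⟨h3, h4, h5, h6⟩), if_neg h5, if_neg (fun h => h6 h.2), if_pos ⟨h5, h6⟩]; ring
    rw [Finset.sum_congr rfl h2, Finset.sum_add_distrib, Finset.sum_add_distrib, ← Finset.sum_filter,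
      ← Finset.sum_filter, ← Finset.sum_filter, Finset.sum_const, Finset.sum_const, Finset.sum_const,
      Finset.filter_filter, Finset.filter_filter, Finset.filter_filter] at hsum
    have h3 : (univ.filter fun g : Equiv.Perm (Fin 5) => (g 0 = 0 ∧ Equiv.Perm.sign g = 1) ∧ g = 1).card = 1 := by
      decide +kernel
    have h4 : (univ.filter fun g : Equiv.Perm (Fin 5) => (g 0 = 0 ∧ Equiv.Perm.sign g = 1) ∧ g ≠ 1 ∧ g * g = 1).card = 3 := by
      decide +kernel
    have h5 : (univ.filter fun g : Equiv.Perm (Fin 5) => (g 0 = 0 ∧ Equiv.Perm.sign g = 1) ∧ g ≠ 1 ∧ g * g ≠ 1).card = 8 := by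
      decide +kernel
    rw [h3, h4, h5] at hsum
    simp only [nsmul_eq_mul] at hsum
    push_cast at hsum
    linear_combination hsum
  -- the norm
  have e2 : (16 : ℝ) + 15 * b ^ 2 + 20 * c ^ 2 ≤ 120 := by
    have h2 := Cfsg.Agent.H937.CC.sum_normSq_irr hirr
    have h3 : (Nat.card (Equiv.Perm (Fin 5)) : ℝ) = 120 := by
      rw [Nat.card_eq_fintype_card, Fintype.card_perm, Fintype.card_fin]
      norm_num [Nat.factorial]
    rw [h3] at h2
    rw [← h2]
    have h4 : ∀ g : Equiv.Perm (Fin 5), (if g = 1 then (16 : ℝ) else 0) +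
        ((if g ≠ 1 ∧ g * g = 1 ∧ Equiv.Perm.sign g = 1 then (b : ℝ) ^ 2 else 0) +
          if g ≠ 1 ∧ g * g * g = 1 then (c : ℝ) ^ 2 else 0) ≤ Complex.normSq (ρ.character g) := by
      intro g
      by_cases h5 : g = 1
      · rw [h5, h1]
        simp [Complex.normSq]
        norm_num
      · rw [if_neg h5, zero_add]
        by_cases h6 : g * g = 1 ∧ Equiv.Perm.sign g = 1
        · rw [if_pos ⟨h5, h6⟩, if_neg, hz g h5 h6.1 h6.2, add_zero]
          · rw [show ((b : ℤ) : ℂ) = ((b : ℝ) : ℂ) by push_cast; rfl, Complex.normSq_ofReal, sq]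
          · rintro ⟨-, h7⟩
            rw [h6.1, one_mul] at h7
            exact h5 h7
        · rw [if_neg (fun h => h6 h.2), zero_add]
          by_cases h7 : g * g * g = 1
          · rw [if_pos ⟨h5, h7⟩, hy g h5 h7]
            rw [show ((c : ℤ) : ℂ) = ((c : ℝ) : ℂ) by push_cast; rfl, Complex.normSq_ofReal, sq]
          · rw [if_neg (fun h => h7 h.2)]
            exact Complex.normSq_nonneg _
    have h5 := Finset.sum_le_sum fun g (_ : g ∈ (Finset.univ : Finset (Equiv.Perm (Fin 5)))) => h4 g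
    rw [Finset.sum_add_distrib, Finset.sum_add_distrib, ← Finset.sum_filter,
      ← Finset.sum_filter, ← Finset.sum_filter, Finset.sum_const, Finset.sum_const, Finset.sum_const, cnt_z, cnt_y] at h5
    have h6 : (univ.filter fun g : Equiv.Perm (Fin 5) => g = 1).card = 1 := by decide +kernel
    rw [h6] at h5
    simp only [nsmul_eq_mul] at h5
    push_cast at h5
    linarith
  have e3 : 4 + 3 * b + 8 * c = 0 := by exact_mod_cast e1
  have e4 : 16 + 15 * b ^ 2 + 20 * c ^ 2 ≤ 120 := by exact_mod_cast e2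
  have h2 : -3 < c := by nlinarith [sq_nonneg b]
  have h3 : c < 3 := by nlinarith [sq_nonneg b]
  have h4 : -3 < b := by nlinarith [sq_nonneg c]
  have h5 : b < 3 := by nlinarith [sq_nonneg c]
  interval_cases c <;> omega

end five

/-! ### The key lemma -/

section

variable {α : Type u} [Fintype α] [DecidableEq α] {p : ℕ}

theorem key_irr (hp : p.Prime) (hp5 : 5 ≤ p) (hα : Fintype.card α = p) {V : Type*} [AddCommGroup V] [Module ℂ V]
    [FiniteDimensional ℂ V] (ρ : Representation ℂ (Equiv.Perm α) V) (hirr : IsIrrCharacter _ ρ.character)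
    (h : ∀ c : Equiv.Perm α, orderOf c = p → ∀ v, ρ c v = v → v = 0) (a : α) :
    ∃ v : V, v ≠ 0 ∧ ∀ g : Equiv.Perm α, g a = a → Equiv.Perm.sign g = 1 → ρ g v = v := by
  have hdeg := degree_eq hp hα ρ hirr h
  by_cases hp7 : 7 ≤ p
  · exact even_seven hp hp7 hα ρ hdeg.1 a
  · have hp' : p = 5 := by
      interval_cases p
      · rfl
      · exact absurd hp (by norm_num)
    subst hp'
    obtain ⟨e0⟩ : Nonempty (α ≃ Fin 5) := ⟨Fintype.equivFinOfCardEq hα⟩
    let e : α ≃ Fin 5 := e0.trans (Equiv.swap (e0 a) 0)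
    have he : e a = 0 := by
      change Equiv.swap (e0 a) 0 (e0 a) = 0
      exact Equiv.swap_apply_left _ _
    let E : Equiv.Perm (Fin 5) ≃* Equiv.Perm α := e.symm.permCongrHom
    have hE : ∀ g x, E g x = e.symm (g (e x)) := fun g x => rfl
    obtain ⟨v, hv, hv1⟩ := even_five (ρ.comp E.toMonoidHom)
      (isIrr_comp E.toMonoidHom E.surjective hirr) (by
        change ρ.character (E 1) = 4
        rw [map_one, hdeg.1]
        norm_num)
    refine ⟨v, hv, fun g hg hs => ?_⟩
    have h1 := hv1 (E.symm g) (by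
      have h2 := hE (E.symm g) a
      rw [E.apply_symm_apply, hg, he] at h2
      have h3 := congrArg e h2
      rw [e.apply_symm_apply, he] at h3
      exact h3.symm) (by
      have h2 : Equiv.Perm.sign (E (E.symm g)) = Equiv.Perm.sign (E.symm g) := Equiv.Perm.sign_permCongr _ _
      rw [← h2, E.apply_symm_apply, hs])
    change ρ (E (E.symm g)) v = v at h1
    rwa [E.apply_symm_apply] at h1

/-- **The key lemma.** -/
theorem key (hp : p.Prime) (hp5 : 5 ≤ p) (hα : Fintype.card α = p) {V : Type*} [AddCommGroup V] [Module ℂ V]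
    [FiniteDimensional ℂ V] [Nontrivial V] (ρ : Representation ℂ (Equiv.Perm α) V)
    (h : ∀ c : Equiv.Perm α, orderOf c = p → ∀ v, ρ c v = v → v = 0) (a : α) :
    ∃ v : V, v ≠ 0 ∧ ((∀ g : Equiv.Perm α, g a = a → ρ g v = v) ∨
      (∀ g : Equiv.Perm α, g a = a → ρ g v = ((Equiv.Perm.sign g : ℤ) : ℂ) • v)) := by
  obtain ⟨U, hU⟩ := exists_irreducible_sub ρ
  obtain ⟨v, hv, hv1⟩ := key_irr hp hp5 hα U.toRepresentation (isIrrCharacter_of_rep _ hU) (by
    intro c hc v hv
    apply Subtype.ext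
    exact h c hc v (congrArg Subtype.val hv)) a
  obtain ⟨b, c, hb, hc, hbc⟩ : ∃ b c : α, b ≠ a ∧ c ≠ a ∧ b ≠ c := by
    have h1 : 1 < Fintype.card {x // x ≠ a} := by
      rw [Fintype.card_subtype_compl, Fintype.card_subtype_eq, hα]
      omega
    obtain ⟨b, c, hbc⟩ := Fintype.one_lt_card_iff.1 h1
    exact ⟨b, c, b.2, c.2, fun h => hbc (Subtype.ext h)⟩
  exact of_even ρ hb hc hbc (v := (v : V)) (fun h0 => hv (Subtype.ext h0)) fun g hg hs =>
    congrArg Subtype.val (hv1 g hg hs)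

end

end Cfsg.Agent.H937.AltKey
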