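import Cfsg.Agent.H127.An.Key
import Cfsg.Agent.H937.Conj.AltKey

/-!
# The key lemma of S4792 in the form of `Cfsg.Agent.H127.An.KeyLemma`
-/

set_option autoImplicit false

namespace Cfsg.Agent.H937.AltKey

open Equiv

/-- An element of `S_p` of order `p` is a `p`-cycle moving every point. -/
theorem isCycle_of_orderOf {p : ℕ} (hp : p.Prime) {c : Perm (Fin p)} (hc : orderOf c = p) :
    c.IsCycle ∧ c.support = Finset.univ := by
  have h1 : c.IsCycle := Perm.isCycle_of_prime_order' (by rw [hc]; exact hp) (by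
    rw [hc, Fintype.card_fin]; have := hp.pos; omega)
  refine ⟨h1, ?_⟩
  rw [← Finset.card_eq_iff_eq_univ, ← h1.orderOf, hc, Fintype.card_fin]

/-- **The key lemma** in the form of `H127.An.Key`. -/
theorem keyLemma : Cfsg.Agent.H127.An.KeyLemma := by
  intro p hp hp5 V _ _ _ _ ρ h
  obtain ⟨v, hv, h1⟩ := key hp hp5 (Fintype.card_fin p) ρ (fun c hc =>
    h c (isCycle_of_orderOf hp hc).1 (isCycle_of_orderOf hp hc).2) ⟨0, hp.pos⟩
  exact ⟨_, v, hv, h1⟩

end Cfsg.Agent.H937.AltKey
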